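import Cfsg.Agent.Law.SL2
import Cfsg.Agent.Forms.UnitGroup
import Cfsg.Prelude.Def_Classical

/-!
Embeddings of perfect groups into classical groups, and laws modulo the centre.
-/

set_option autoImplicit false

open Matrix

namespace Cfsg.Agent.Law

open Cfsg.Agent.SL2

/-- All values of `w` are central. -/
def CLaw (w : FreeGroup ℕ) (H : Type*) [Group H] : Prop :=
  ∀ f : ℕ → H, FreeGroup.lift f w ∈ Subgroup.center H

theorem map_lift {L H : Type*} [Group L] [Group H] (φ : L →* H) (f : ℕ → L) (w : FreeGroup ℕ) :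
    φ (FreeGroup.lift f w) = FreeGroup.lift (fun i => φ (f i)) w :=
  FreeGroup.lift_unique (φ.comp (FreeGroup.lift f)) (fun x => by simp)

theorem CLaw.of_injective {w : FreeGroup ℕ} {L H : Type*} [Group L] [Group H] (h : CLaw w H)
    (φ : L →* H) (hφ : Function.Injective φ) : CLaw w L := by
  intro f
  rw [Subgroup.mem_center_iff]
  intro g
  apply hφ
  rw [map_mul, map_mul, map_lift]
  exact Subgroup.mem_center_iff.1 (h _) _

theorem cLaw_of_law {w : FreeGroup ℕ} {G H : Type*} [Group G] [Group H]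
    (h : ∀ f : ℕ → G, FreeGroup.lift f w = 1) (e : G ≃* H) : CLaw w H := by
  intro f
  have := congrArg e.toMonoidHom (h fun i => e.symm (f i))
  rw [map_lift, map_one] at this
  simp only [MulEquiv.toMonoidHom_eq_coe, MonoidHom.coe_coe, MulEquiv.apply_symm_apply] at this
  rw [this]; exact one_mem _

theorem cLaw_of_quot {w : FreeGroup ℕ} {G H : Type*} [Group G] [Group H]
    (h : ∀ f : ℕ → G, FreeGroup.lift f w = 1) (e : G ≃* H ⧸ Subgroup.center H) : CLaw w H := by
  intro f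
  have := congrArg e.toMonoidHom (h fun i => e.symm (QuotientGroup.mk' _ (f i)))
  rw [map_lift, map_one] at this
  simp only [MulEquiv.toMonoidHom_eq_coe, MonoidHom.coe_coe, MulEquiv.apply_symm_apply] at this
  rw [← map_lift] at this
  exact (QuotientGroup.eq_one_iff _).1 this

theorem map_mem_commutator {L H : Type*} [Group L] [Group H] (hL : commutator L = ⊤) (φ : L →* H)
    (x : L) : φ x ∈ commutator H := by
  have : (commutator L).map φ ≤ commutator H := by
    rw [commutator_def, Subgroup.map_commutator]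
    exact Subgroup.commutator_mono le_top le_top
  exact this (Subgroup.mem_map_of_mem _ (hL ▸ Subgroup.mem_top x))

theorem map_eq_one_of_perfect {L A : Type*} [Group L] [CommGroup A] (hL : commutator L = ⊤)
    (φ : L →* A) (x : L) : φ x = 1 := by
  have := map_mem_commutator hL φ x
  rwa [commutator_eq_bot, Subgroup.mem_bot] at this

variable {F : Type*} [Field F] {ι κ : Type} [Fintype ι] [DecidableEq ι] [Fintype κ] [DecidableEq κ]

/-- Extension by an identity block on the right. -/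
def blkL (κ : Type) [Fintype κ] [DecidableEq κ] : Matrix ι ι F →* Matrix (ι ⊕ κ) (ι ⊕ κ) F where
  toFun A := fromBlocks A 0 0 1
  map_one' := fromBlocks_one
  map_mul' A B := by simp [fromBlocks_multiply]

/-- Extension by an identity block on the left. -/
def blkR (κ : Type) [Fintype κ] [DecidableEq κ] : Matrix ι ι F →* Matrix (κ ⊕ ι) (κ ⊕ ι) F where
  toFun A := fromBlocks 1 0 0 A
  map_one' := fromBlocks_one
  map_mul' A B := by simp [fromBlocks_multiply]

theorem blkL_injective : Function.Injective (blkL (F := F) (ι := ι) κ) := fun _ _ h =>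
  (fromBlocks_inj.1 h).1

theorem blkR_injective : Function.Injective (blkR (F := F) (ι := ι) κ) := fun _ _ h =>
  (fromBlocks_inj.1 h).2.2.2

theorem blkL_mulVec (A : Matrix ι ι F) (v : ι ⊕ κ → F) :
    blkL κ A *ᵥ v = Sum.elim (A *ᵥ (v ∘ Sum.inl)) (v ∘ Sum.inr) := by
  change fromBlocks A 0 0 1 *ᵥ v = _
  simp [fromBlocks_mulVec]

theorem blkR_mulVec (A : Matrix ι ι F) (v : κ ⊕ ι → F) :
    blkR κ A *ᵥ v = Sum.elim (v ∘ Sum.inl) (A *ᵥ (v ∘ Sum.inr)) := by
  change fromBlocks 1 0 0 A *ᵥ v = _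
  simp [fromBlocks_mulVec]

/-- The hyperbolic embedding `A ↦ diag (A, A⁻ᵀ)`. -/
def hypM : GL ι F →* Matrix (ι ⊕ ι) (ι ⊕ ι) F where
  toFun A := fromBlocks A.1 0 0 (A⁻¹).1ᵀ
  map_one' := by simp
  map_mul' A B := by
    rw [_root_.mul_inv_rev, Units.val_mul, Units.val_mul, transpose_mul]
    simp [fromBlocks_multiply]

theorem hypM_injective : Function.Injective (hypM (F := F) (ι := ι)) := fun _ _ h =>
  Units.ext (fromBlocks_inj.1 h).1

theorem hypM_form (A : GL ι F) (v : ι ⊕ ι → F) :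
    ∑ i, (hypM A *ᵥ v) (.inl i) * (hypM A *ᵥ v) (.inr i) = ∑ i, v (.inl i) * v (.inr i) := by
  change ((fromBlocks A.1 0 0 (A⁻¹).1ᵀ *ᵥ v) ∘ Sum.inl) ⬝ᵥ
    ((fromBlocks A.1 0 0 (A⁻¹).1ᵀ *ᵥ v) ∘ Sum.inr) = (v ∘ Sum.inl) ⬝ᵥ (v ∘ Sum.inr)
  rw [fromBlocks_mulVec]
  simp only [zero_mulVec, add_zero, zero_add, Sum.elim_comp_inl, Sum.elim_comp_inr]
  rw [mulVec_transpose, dotProduct_comm, ← dotProduct_mulVec, mulVec_mulVec, ← Units.val_mul,
    inv_mul_cancel, Units.val_one, one_mulVec, dotProduct_comm]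

theorem hypM_mem (A : GL ι F) : hypM A ∈ symplecticGroup ι F := by
  change fromBlocks A.1 0 0 (A⁻¹).1ᵀ ∈ _
  rw [SymplecticGroup.fromBlocks_mem_iff]
  refine ⟨by simp, by simp, ?_⟩
  rw [← transpose_mul, ← Units.val_mul, inv_mul_cancel]
  simp

theorem toHomUnits_injective {L M : Type*} [Group L] [Monoid M] {φ : L →* M}
    (h : Function.Injective φ) : Function.Injective φ.toHomUnits := fun _ _ e =>
  h (congrArg Units.val e)

section

variable {w : FreeGroup ℕ} {L : Type*} [Group L]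

theorem cLaw_of_SL (hL : commutator L = ⊤) (ψ : L →* GL ι F) (hψ : Function.Injective ψ)
    (h : CLaw w (SpecialLinearGroup ι F)) : CLaw w L := by
  have hd : ∀ x, (ψ x).1.det = 1 := fun x =>
    congrArg Units.val (map_eq_one_of_perfect hL (GeneralLinearGroup.det.comp ψ) x)
  let φ : L →* SpecialLinearGroup ι F :=
    { toFun := fun x => ⟨(ψ x).1, hd x⟩
      map_one' := Subtype.ext (by simp)
      map_mul' := fun x y => Subtype.ext (by simp; rfl) }
  exact h.of_injective φ fun x y e => hψ (Units.ext (congrArg Subtype.val e))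

theorem cLaw_of_Sp (ψ : L →* GL ι F) (hψ : Function.Injective ψ)
    (h : CLaw w (symplecticGroup ι F)) : CLaw w L :=
  h.of_injective ((hypM.comp ψ).codRestrict _ fun x => hypM_mem (ψ x)) fun _ _ e =>
    hψ (hypM_injective (congrArg Subtype.val e))

theorem cLaw_of_Omega (hL : commutator L = ⊤) (Q : (ι → F) → F) (ψ : L →* Matrix ι ι F)
    (hψ : Function.Injective ψ) (hQ : ∀ x v, Q (ψ x *ᵥ v) = Q v)
    (h : CLaw w (Omega F Q)) : CLaw w L := by
  let φ : L →* isometryGroup F Q := ψ.toHomUnits.codRestrict _ fun x u _ => hQ x u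
  exact h.of_injective (φ.codRestrict _ (map_mem_commutator hL φ)) fun _ _ e =>
    hψ (congrArg (fun x : Omega F Q => x.1.1.1) e)

theorem cLaw_of_plus (hL : commutator L = ⊤) {m : ℕ} (ψ : L →* GL (Fin m) F)
    (hψ : Function.Injective ψ) (h : CLaw w (Omega F (quadFormPlus m F))) : CLaw w L :=
  cLaw_of_Omega hL _ (hypM.comp ψ) (hypM_injective.comp hψ) (fun x v => hypM_form (ψ x) v) h

theorem cLaw_of_odd (hL : commutator L = ⊤) {m : ℕ} (ψ : L →* GL (Fin m) F)
    (hψ : Function.Injective ψ) (h : CLaw w (Omega F (quadFormOdd m F))) : CLaw w L :=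
  cLaw_of_Omega hL _ ((blkR Unit).comp (hypM.comp ψ)) (blkR_injective.comp (hypM_injective.comp hψ))
    (fun x v => by
      simp only [quadFormOdd, MonoidHom.comp_apply, blkR_mulVec, Sum.elim_inl, Sum.elim_inr,
        hypM_form]
      rfl) h

theorem cLaw_of_minus (hL : commutator L = ⊤) {m : ℕ} {a b : F} (ψ : L →* GL (Fin m) F)
    (hψ : Function.Injective ψ) (h : CLaw w (Omega F (quadFormMinus m F a b))) : CLaw w L :=
  cLaw_of_Omega hL _ ((blkL (Fin 2)).comp (hypM.comp ψ))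
    (blkL_injective.comp (hypM_injective.comp hψ))
    (fun x v => by
      simp only [quadFormMinus, MonoidHom.comp_apply, blkL_mulVec, Sum.elim_inl, Sum.elim_inr,
        hypM_form]
      rfl) h

theorem cLaw_of_SU (hL : commutator L = ⊤) {n q : ℕ} (ψ : L →* GL (Fin n) F)
    (hψ : Function.Injective ψ)
    (hf : ∀ x u v, hermForm n F q ((ψ x).1 *ᵥ u) ((ψ x).1 *ᵥ v) = hermForm n F q u v)
    (h : CLaw w (SU n F q)) : CLaw w L := by
  have hd : ∀ x, (ψ x).1.det = 1 := fun x =>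
    congrArg Units.val (map_eq_one_of_perfect hL (GeneralLinearGroup.det.comp ψ) x)
  let φ : L →* SpecialLinearGroup (Fin n) F :=
    { toFun := fun x => ⟨(ψ x).1, hd x⟩
      map_one' := Subtype.ext (by simp)
      map_mul' := fun x y => Subtype.ext (by simp; rfl) }
  exact h.of_injective (φ.codRestrict _ fun x => hf x) fun x y e =>
    hψ (Units.ext (congrArg (fun x : SU n F q => x.1.1) e))

end

theorem exists_perm_emb (L : Type*) [Group L] [Finite L] {m : ℕ} (hm : Nat.card L ≤ m) :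
    ∃ φ : L →* Equiv.Perm (Fin m), Function.Injective φ := by
  cases nonempty_fintype L
  obtain ⟨e⟩ : Nonempty (L ↪ Fin m) :=
    Function.Embedding.nonempty_of_card_le (by rwa [Fintype.card_fin, ← Nat.card_eq_fintype_card])
  exact ⟨(Equiv.Perm.viaEmbeddingHom e).comp (MulAction.toPermHom L L),
    (Equiv.Perm.viaEmbeddingHom_injective e).comp MulAction.toPerm_injective⟩

theorem permMatrixHom_injective : Function.Injective (permMatrixHom : Equiv.Perm ι →* Matrix ι ι F) := by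
  rw [injective_iff_map_eq_one]
  intro σ h
  ext i
  have := permMatrix_mulVec (σ := σ⁻¹) (v := (Pi.single i 1 : ι → F))
  rw [show σ⁻¹.permMatrix F = 1 from h, one_mulVec] at this
  have h2 := congrFun this (σ i)
  by_contra hne
  simp [Pi.single_apply] at h2
  exact hne h2

theorem exists_perm_gl (L : Type*) [Group L] [Finite L] {m : ℕ} (hm : Nat.card L ≤ m) :
    ∃ ψ : L →* GL (Fin m) F, Function.Injective ψ ∧
      ∀ x, ∃ σ : Equiv.Perm (Fin m), ∀ v : Fin m → F, (ψ x).1 *ᵥ v = v ∘ σ := by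
  obtain ⟨φ, hφ⟩ := exists_perm_emb L hm
  exact ⟨(permMatrixHom.comp φ).toHomUnits, toHomUnits_injective (permMatrixHom_injective.comp hφ),
    fun x => ⟨(φ x)⁻¹, fun v => permMatrix_mulVec _⟩⟩

theorem exists_ext_gl {L : Type*} [Group L] (ψ : L →* M2 F) (hψ : Function.Injective ψ) {m : ℕ}
    (hm : 2 ≤ m) : ∃ ψ' : L →* GL (Fin m) F, Function.Injective ψ' ∧
      ∀ q : ℕ, (∀ x u v, hermForm 2 F q (ψ x *ᵥ u) (ψ x *ᵥ v) = hermForm 2 F q u v) →
        ∀ x u v, hermForm m F q ((ψ' x).1 *ᵥ u) ((ψ' x).1 *ᵥ v) = hermForm m F q u v := by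
  obtain ⟨k, rfl⟩ := Nat.exists_eq_add_of_le hm
  let e : Fin 2 ⊕ Fin k ≃ Fin (2 + k) := finSumFinEquiv
  let r : Matrix (Fin 2 ⊕ Fin k) (Fin 2 ⊕ Fin k) F →* Matrix (Fin (2 + k)) (Fin (2 + k)) F :=
    (reindexAlgEquiv F F e).toMulEquiv.toMonoidHom
  refine ⟨(r.comp ((blkL (Fin k)).comp ψ)).toHomUnits, toHomUnits_injective
    ((reindexAlgEquiv F F e).injective.comp (blkL_injective.comp hψ)), fun q h x u v => ?_⟩
  have e1 : ∀ u : Fin (2 + k) → F, ((r.comp ((blkL (Fin k)).comp ψ)).toHomUnits x).1 *ᵥ u =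
      (blkL (Fin k) (ψ x) *ᵥ (u ∘ e)) ∘ e.symm := fun u =>
    submatrix_mulVec_equiv _ _ _ _
  have := h x ((u ∘ e) ∘ Sum.inl) ((v ∘ e) ∘ Sum.inl)
  simp only [hermForm] at this ⊢
  rw [e1, e1, ← e.sum_comp, ← e.sum_comp (fun i => u i * v i ^ q)]
  simp only [Function.comp_apply, Equiv.symm_apply_apply, blkL_mulVec, Fintype.sum_sum_type,
    Sum.elim_inl, Sum.elim_inr]
  rw [this]
  rfl

open Cfsg.Agent.Forms in
theorem exists_su_two [Fintype F] {q : ℕ} (hF : Fintype.card F = q ^ 2) :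
    ∃ K : Subfield F, Nat.card F ≤ Nat.card K ^ 2 ∧ ∃ ψ : SLT K →* M2 F, Function.Injective ψ ∧
      ∀ x u v, hermForm 2 F q (ψ x *ᵥ u) (ψ x *ᵥ v) = hermForm 2 F q u v := by
  set σ := frobq hF with hσ
  have hσσ : ∀ x, σ (σ x) = x := frobq_frobq hF
  obtain ⟨θ, hθ⟩ := exists_frobq_ne hF
  obtain ⟨α, hα⟩ := exists_norm_eq hF (-1) (by simp)
  rw [← hσ] at hθ hα
  have hδ : θ - σ θ ≠ 0 := sub_ne_zero.2 (Ne.symm hθ)
  have hδ' : σ θ - θ ≠ 0 := sub_ne_zero.2 hθ
  have hα0 : α ≠ 0 := by rintro rfl; simp at hα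
  let K : Subfield F := RingHom.eqLocusField σ (RingHom.id F)
  have hK : ∀ x, x ∈ K ↔ σ x = x := fun x => Iff.rfl
  refine ⟨K, ?_, ?_⟩
  · rw [sq, ← Nat.card_prod]
    refine Nat.card_le_card_of_surjective (fun p : K × K => (p.1 : F) + p.2 * θ) fun x => ?_
    refine ⟨(⟨x - (x - σ x) / (θ - σ θ) * θ, (hK _).2 ?_⟩, ⟨(x - σ x) / (θ - σ θ), (hK _).2 ?_⟩), by simp⟩
    · simp only [map_sub, map_mul, map_div₀, hσσ]
      field_simp
      ring
    · simp only [map_sub, map_div₀, hσσ]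
      field_simp
      ring
  · let P : GLT F := mkGL !![1, σ θ; α, α * θ] (by
      simp only [det_fin_two_of]
      intro e
      apply mul_ne_zero hα0 hδ
      linear_combination e)
    have hP : P.1 = !![1, σ θ; α, α * θ] := rfl
    let ψ0 : SLT K →* GLT F := SpecialLinearGroup.toGL.comp (SpecialLinearGroup.map K.subtype)
    refine ⟨(Units.coeHom _).comp ((MulAut.conj P).toMonoidHom.comp ψ0), ?_, fun x u v => ?_⟩
    · refine Units.val_injective.comp ((MulAut.conj P).injective.comp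
        (SpecialLinearGroup.toGL_injective.comp fun x y e => ?_))
      apply sl_ext
      ext i j
      exact congrArg (fun g : SLT F => g.1 i j) e
    · have key : ∀ u v : Fin 2 → F, hermForm 2 F q (P.1 *ᵥ u) (P.1 *ᵥ v) =
          (θ - σ θ) * (u 0 * σ (v 1) - u 1 * σ (v 0)) := by
        intro u v
        change ∑ i, (P.1 *ᵥ u) i * σ ((P.1 *ᵥ v) i) = _
        simp [hP, Fin.sum_univ_two, mulVec, dotProduct, hσσ]
        linear_combination ((u 0 + θ * u 1) * (σ (v 0) + σ θ * σ (v 1))) * hα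
      have e1 : ∀ u : Fin 2 → F, (P * ψ0 x * P⁻¹).1 *ᵥ u = P.1 *ᵥ ((ψ0 x).1 *ᵥ ((P⁻¹).1 *ᵥ u)) :=
        fun u => by simp only [Units.val_mul, mulVec_mulVec, Matrix.mul_assoc]
      have e2 : ∀ u : Fin 2 → F, u = P.1 *ᵥ ((P⁻¹).1 *ᵥ u) := fun u => by
        rw [mulVec_mulVec, ← Units.val_mul, mul_inv_cancel, Units.val_one, one_mulVec]
      change hermForm 2 F q ((P * ψ0 x * P⁻¹).1 *ᵥ u) ((P * ψ0 x * P⁻¹).1 *ᵥ v) = _
      rw [e1, e1, key]
      conv_rhs => rw [e2 u, e2 v, key]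
      congr 1
      have hx : ∀ i j, (ψ0 x).1 i j = (x.1 i j : F) := fun i j => rfl
      have hd : (x.1 0 0 : F) * x.1 1 1 - x.1 0 1 * x.1 1 0 = 1 := by exact_mod_cast sl_det x
      have hs : ∀ i j, σ (x.1 i j : F) = x.1 i j := fun i j => (x.1 i j).2
      generalize (P⁻¹).1 *ᵥ u = u'
      generalize (P⁻¹).1 *ᵥ v = v'
      simp only [mulVec, dotProduct, Fin.sum_univ_two, hx, map_add, map_mul, hs]
      linear_combination (u' 0 * σ (v' 1) - u' 1 * σ (v' 0)) * hd

theorem sl_perfect (K : Type*) [Field K] [Finite K] (h4 : 4 ≤ Nat.card K) :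
    commutator (SLT K) = ⊤ := by
  cases nonempty_fintype K
  obtain ⟨a, ha⟩ := IsCyclic.exists_generator (α := Kˣ)
  refine Matrix.SL2.commutator_eq_top a.ne_zero fun e => ?_
  have h1 := orderOf_le_of_pow_eq_one two_pos (show a ^ 2 = 1 from Units.ext (by simpa using e))
  rw [orderOf_eq_card_of_forall_mem_zpowers ha, Nat.card_units] at h1
  omega

theorem card_le_of_inj {G H : Type*} [Group G] [Group H] (e : G ≃* H ⧸ Subgroup.center H)
    [Finite F] (f : H → Matrix ι ι F) (hf : Function.Injective f) {a d : ℕ} (ha : Nat.card F ≤ a)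
    (hd : Fintype.card ι ≤ d) : Nat.card G ≤ a ^ (d * d) := by
  have : Finite H := Finite.of_injective f hf
  have h0 : 0 < a := lt_of_lt_of_le Nat.card_pos ha
  calc Nat.card G = Nat.card (H ⧸ Subgroup.center H) := Nat.card_congr e.toEquiv
    _ ≤ Nat.card H := Nat.card_le_card_of_surjective _ (QuotientGroup.mk'_surjective _)
    _ ≤ Nat.card (Matrix ι ι F) := Nat.card_le_card_of_injective f hf
    _ = Nat.card F ^ (Fintype.card ι * Fintype.card ι) := by
      change Nat.card (ι → ι → F) = _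
      rw [Nat.card_fun, Nat.card_fun, Nat.card_eq_fintype_card (α := ι), ← pow_mul]
    _ ≤ a ^ (Fintype.card ι * Fintype.card ι) := Nat.pow_le_pow_left ha _
    _ ≤ _ := Nat.pow_le_pow_right h0 (Nat.mul_le_mul hd hd)

end Cfsg.Agent.Law
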