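import Cfsg.Agent.SL2.Elem

/-!
A non-trivial word is not central in SL₂ over large finite fields.
-/

set_option autoImplicit false

open Matrix Polynomial

namespace Cfsg.Agent.Law

open Cfsg.Agent.SL2

variable {F : Type*} [Field F]

/-- The element with eigenvalue `t` on `(1, a)` and `t⁻¹` on `(1, b)`. -/
noncomputable def hyp (t : F) (ht : t ≠ 0) (a b : F) (hab : a - b ≠ 0) : SLT F :=
  mkSL !![(t⁻¹ * a - t * b) / (a - b), (t - t⁻¹) / (a - b);
      a * b * (t⁻¹ - t) / (a - b), (t * a - t⁻¹ * b) / (a - b)] (by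
    simp only [det_fin_two_of]; field_simp; ring)

theorem hyp_inv (t : F) (ht : t ≠ 0) (a b : F) (hab : a - b ≠ 0) (hba : b - a ≠ 0) :
    (hyp t ht a b hab)⁻¹ = hyp t ht b a hba := by
  apply sl_ext
  rw [sl_inv_val]
  apply m2_ext <;> simp [hyp] <;> field_simp <;> ring

/-- One step of the recursion on polynomial vectors. -/
noncomputable def step (a b : F) (p : F[X] × F[X]) : F[X] × F[X] :=
  (X * (C (a - b)⁻¹ * (p.2 - C b * p.1)) + C (b - a)⁻¹ * (p.2 - C a * p.1),
   C a * (X * (C (a - b)⁻¹ * (p.2 - C b * p.1))) + C b * (C (b - a)⁻¹ * (p.2 - C a * p.1)))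

/-- The polynomial vector attached to a word. -/
noncomputable def vec (pt : ℕ × Bool → F) (L : List (ℕ × Bool)) : F[X] × F[X] :=
  L.foldr (fun x p => step (pt x) (pt (x.1, !x.2)) p) (0, 1)

theorem vec_nil (pt : ℕ × Bool → F) : vec pt [] = (0, 1) := rfl

theorem vec_cons (pt : ℕ × Bool → F) (x : ℕ × Bool) (L : List (ℕ × Bool)) :
    vec pt (x :: L) = step (pt x) (pt (x.1, !x.2)) (vec pt L) := rfl

theorem vec_coeff (pt : ℕ × Bool → F) (L : List (ℕ × Bool)) :
    ∀ m, L.length < m → (vec pt L).1.coeff m = 0 ∧ (vec pt L).2.coeff m = 0 := by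
  induction L with
  | nil =>
    intro m hm
    obtain ⟨m, rfl⟩ := Nat.exists_eq_add_of_lt hm
    simp [vec_nil, coeff_one]
  | cons x L ih =>
    intro m hm
    obtain ⟨k, rfl⟩ : ∃ k, m = k + 1 := ⟨m - 1, by simp at hm; omega⟩
    have h1 := ih k (by simp at hm; omega)
    have h2 := ih (k + 1) (by simp at hm; omega)
    simp only [vec_cons, step, coeff_add, coeff_X_mul, coeff_C_mul, coeff_sub, h1.1, h1.2, h2.1, h2.2]
    simp

theorem vec_lead (pt : ℕ × Bool → F) (S : Set (ℕ × Bool)) (hS : Set.InjOn pt S)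
    (L : List (ℕ × Bool)) (hL : FreeGroup.IsReduced L) (hm : ∀ x ∈ L, x ∈ S ∧ (x.1, !x.2) ∈ S)
    (x : ℕ × Bool) (hx : L.head? = some x) :
    (vec pt L).1.coeff L.length ≠ 0 ∧
      (vec pt L).2.coeff L.length = pt x * (vec pt L).1.coeff L.length := by
  induction L generalizing x with
  | nil => simp at hx
  | cons y L ih =>
    obtain rfl : y = x := by simpa using hx
    have hy := hm y (by simp)
    have hab : pt y - pt (y.1, !y.2) ≠ 0 := by
      rw [sub_ne_zero]
      intro e
      have := congrArg Prod.snd (hS hy.1 hy.2 e)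
      simp at this
    have h2 := vec_coeff pt L (L.length + 1) (by omega)
    have key : (vec pt L).2.coeff L.length - pt (y.1, !y.2) * (vec pt L).1.coeff L.length ≠ 0 := by
      rcases L with _ | ⟨z, L⟩
      · simp [vec_nil]
      · obtain ⟨h3, h4⟩ := FreeGroup.isReduced_cons_cons.1 hL
        obtain ⟨h5, h6⟩ := ih h4 (fun x hx => hm x (List.mem_cons_of_mem _ hx)) z rfl
        rw [h6, ← sub_mul]
        refine mul_ne_zero ?_ h5
        rw [sub_ne_zero]
        intro e
        have := hS (hm z (by simp)).1 hy.2 e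
        have e1 := congrArg Prod.fst this
        have e2 := congrArg Prod.snd this
        simp only at e1 e2
        rw [← h3 e1.symm] at e2
        simp at e2
    simp only [vec_cons, step, List.length_cons, coeff_add, coeff_X_mul, coeff_C_mul, coeff_sub,
      h2.1, h2.2]
    simp [hab, key]

theorem vec_eval (pt : ℕ × Bool → F) (t : F) (ht : t ≠ 0) (f : ℕ → SLT F) (L : List (ℕ × Bool))
    (hf : ∀ x ∈ L, ∃ h, (cond x.2 (f x.1) (f x.1)⁻¹) = hyp t ht (pt x) (pt (x.1, !x.2)) h) :
    (vec pt L).1.eval (t ^ 2) =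
        t ^ L.length * (L.map fun x => cond x.2 (f x.1) (f x.1)⁻¹).prod.1 0 1 ∧
    (vec pt L).2.eval (t ^ 2) =
        t ^ L.length * (L.map fun x => cond x.2 (f x.1) (f x.1)⁻¹).prod.1 1 1 := by
  induction L with
  | nil => simp [vec_nil]
  | cons x L ih =>
    obtain ⟨h1, h2⟩ := ih (fun y hy => hf y (List.mem_cons_of_mem _ hy))
    obtain ⟨h, e⟩ := hf x (by simp)
    have h' : pt (x.1, !x.2) - pt x ≠ 0 := fun e => h (by linear_combination -e)
    simp only [vec_cons, step, List.map_cons, List.prod_cons, e, sl_mul_val, mul_ap, eval_add,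
      eval_mul, eval_X, eval_C, eval_sub, h1, h2, List.length_cons]
    simp [hyp]
    constructor <;> field_simp <;> ring

theorem exists_not_isScal (w : FreeGroup ℕ) (hw : w ≠ 1) :
    ∃ N : ℕ, ∀ (F : Type*) [Field F] [Finite F], N ≤ Nat.card F →
      ∃ f : ℕ → SLT F, ¬ IsScal (FreeGroup.lift f w).1 := by
  classical
  set L := w.toWord with hL
  obtain ⟨M, hM⟩ : ∃ M : ℕ, ∀ x ∈ L, x.1 < M :=
    ⟨(L.map Prod.fst).sum + 1, fun x hx => Nat.lt_succ_of_le
      (List.single_le_sum (by simp) _ (List.mem_map_of_mem hx))⟩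
  refine ⟨2 * M + 2 * L.length + 2, fun F _ _ hF => ?_⟩
  cases nonempty_fintype F
  rw [Nat.card_eq_fintype_card] at hF
  obtain ⟨ι⟩ : Nonempty (Fin M × Bool ↪ F) :=
    Function.Embedding.nonempty_of_card_le (by simp; omega)
  let pt : ℕ × Bool → F := fun x => if h : x.1 < M then ι (⟨x.1, h⟩, x.2) else 0
  have hS : Set.InjOn pt {x | x.1 < M} := by
    intro x hx y hy e
    simp only [pt, dif_pos (show x.1 < M from hx), dif_pos (show y.1 < M from hy)] at e
    have := ι.injective e
    simp only [Prod.mk.injEq, Fin.mk.injEq] at this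
    exact Prod.ext this.1 this.2
  obtain ⟨x, hx⟩ : ∃ x, L.head? = some x := by
    have : L ≠ [] := fun e => hw (FreeGroup.toWord_eq_nil_iff.1 e)
    rcases L with _ | ⟨x, L⟩
    · exact absurd rfl this
    · exact ⟨x, rfl⟩
  have h1 := (vec_lead pt _ hS L FreeGroup.isReduced_toWord (fun x hx => ⟨hM x hx, hM x hx⟩) x hx).1
  have hp : (vec pt L).1 ≠ 0 := fun e => h1 (by rw [e]; simp)
  have hdeg : (vec pt L).1.natDegree ≤ L.length :=
    natDegree_le_iff_coeff_eq_zero.2 fun m hm => (vec_coeff pt L m hm).1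
  obtain ⟨t, ht⟩ : ∃ t : F, (X * expand F 2 (vec pt L).1).eval t ≠ 0 := by
    by_contra! h
    have h0 : X * expand F 2 (vec pt L).1 ≠ 0 :=
      mul_ne_zero X_ne_zero ((expand_ne_zero two_pos).2 hp)
    apply h0
    apply eq_zero_of_natDegree_lt_card_of_eval_eq_zero _ Function.injective_id h
    rw [natDegree_X_mul ((expand_ne_zero two_pos).2 hp), natDegree_expand]
    omega
  rw [eval_mul, eval_X, expand_eval] at ht
  have ht0 : t ≠ 0 := left_ne_zero_of_mul ht
  have hne : ∀ i, i < M → ∀ b, pt (i, b) - pt (i, !b) ≠ 0 := by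
    intro i hi b
    rw [sub_ne_zero]
    intro e
    have := congrArg Prod.snd (hS (show (i, b).1 < M from hi) (show (i, !b).1 < M from hi) e)
    simp at this
  let f : ℕ → SLT F := fun i =>
    if h : i < M then hyp t ht0 (pt (i, true)) (pt (i, false)) (hne i h true) else 1
  refine ⟨f, fun h => ?_⟩
  have := (vec_eval pt t ht0 f L (by
    rintro ⟨i, b⟩ hx
    have hi : i < M := hM _ hx
    refine ⟨hne i hi b, ?_⟩
    cases b
    · simp only [f, dif_pos hi, cond_false]
      exact hyp_inv _ _ _ _ _ _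
    · simp only [f, dif_pos hi, cond_true]
      rfl)).1
  rw [← FreeGroup.lift_mk, hL, FreeGroup.mk_toWord, h.1, mul_zero] at this
  exact right_ne_zero_of_mul ht this

end Cfsg.Agent.Law
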